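import Groth.Agent.Sga4h.WayOut
import Groth.Agent.EtpbcA.ConsExact
import Groth.Agent.EtpbcA.KilledBy
import Groth.Agent.EtpbcA.StrataGlob
import Groth.Agent.Etrest.DEtPush
import Groth.Agent.PerfA.ExactD
import Groth.Agent.Etcore.Torsion
import Groth.Agent.S0127

/-!
# Complexes with constructible cohomology, bounded below (`D^+_c`), and direct images

`EtPBC.IsConstructible F` means: finite locally constant along finite stratifications of the affine
opens, so constructible sheaves are torsion (`EtpbcA.KilledBy.isTorsion_of_isConstructible`).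

* `cns X : ObjectProperty (EtCoh.Ab X)`, constructible sheaves; `weakSerre_cns`.
* `PlusIn P K` : `K : DerivedCategory A` bounded below with cohomology in the weak Serre class `P`.
* `IsCT K` : `K : DCoh.DEt X` is bounded below with torsion constructible cohomology sheaves.
* `IsCT.iso`, `.of_isZero`, `.shift`, `.of_dist₁/₂/₃`, `.single`, `.single_iff`, `.isTorsion`.
* `IsCT.pull` : `pullD f` preserves `IsCT`.
* `IsCT.push_of` : `pushD f` preserves `IsCT` if `R^q f_*` preserves constructible sheaves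
  (over a field of characteristic zero: `Groth.Agent.S3504`, see `An/H596/ConsC`).
-/

set_option autoImplicit false
universe u v w v' w' u'
open CategoryTheory CategoryTheory.Limits AlgebraicGeometry Opposite Pretriangulated

attribute [local instance] HasDerivedCategory.standard

namespace Groth.Agent.An.H596.Cons

open Groth.Agent.Sga4h.WayOut Groth.Agent.EtpbcA.ConsExact Groth.Agent.Etrest
  Groth.Agent.Etrest.RDer3 Groth.Agent.Etrest.DEtPush DerivedCategory

section general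

/-! ### Bounded below complexes with cohomology in a weak Serre class -/

variable {A : Type u} [Category.{v} A] [Abelian A]

/-- Bounded below with cohomology in `P`. -/
structure PlusIn (P : ObjectProperty A) (K : DerivedCategory A) : Prop where
  ge : ∃ a : ℤ, K.IsGE a
  mem : ∀ n : ℤ, P ((homologyFunctor A n).obj K)

namespace PlusIn

variable {P : ObjectProperty A} (hP : WeakSerre P)

include hP

theorem iso {K L : DerivedCategory A} (e : K ≅ L) (h : PlusIn P K) : PlusIn P L := by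
  obtain ⟨a, ha⟩ := h.ge
  exact ⟨⟨a, DerivedCategory.TStructure.t.isGE_of_iso e a⟩, fun n =>
    hP.iso ((homologyFunctor _ n).mapIso e) (h.mem n)⟩

theorem of_isZero {K : DerivedCategory A} (hK : IsZero K) : PlusIn P K :=
  ⟨⟨0, (isGE_iff K 0).2 fun i _ => (homologyFunctor A i).map_isZero hK⟩,
    fun n => hP.zero _ ((homologyFunctor A n).map_isZero hK)⟩

theorem single {F : A} (hF : P F) (n : ℤ) : PlusIn P ((singleFunctor A n).obj F) := by
  refine ⟨⟨n, inferInstance⟩, fun i => ?_⟩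
  by_cases h : i = n
  · subst h
    exact hP.iso ((singleFunctorCompHomologyFunctorIso A i).app F).symm hF
  · exact hP.zero _ (Cohder.KZDevissage.isZero_homology_single n i h F)

theorem shift {K : DerivedCategory A} (h : PlusIn P K) (n : ℤ) : PlusIn P (K⟦n⟧) := by
  obtain ⟨a, ha⟩ := h.ge
  have e : ∀ i : ℤ, (homologyFunctor A i).obj (K⟦n⟧) ≅ (homologyFunctor A (n + i)).obj K := fun i =>
    ((homologyFunctor A 0).shiftIso n i (n + i) rfl).app K
  refine ⟨⟨a - n, (isGE_iff _ _).2 fun i hi => ?_⟩, fun i => hP.iso (e i).symm (h.mem _)⟩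
  exact IsZero.of_iso (isZero_of_isGE K a (n + i) (by lia)) (e i)

theorem of_dist₂ {T : Triangle (DerivedCategory A)} (hT : T ∈ distTriang _)
    (h₁ : PlusIn P T.obj₁) (h₃ : PlusIn P T.obj₃) : PlusIn P T.obj₂ := by
  obtain ⟨a, ha⟩ := h₁.ge
  obtain ⟨b, hb⟩ := h₃.ge
  refine ⟨⟨min a b, (isGE_iff _ _).2 fun i hi => ?_⟩, fun n =>
    homology_mid hP T hT n (h₃.mem _) (h₁.mem _) (h₃.mem _) (h₁.mem _)⟩
  have e := HomologySequence.exact₂ T hT i
  exact e.isZero_of_both_zeros ((isZero_of_isGE T.obj₁ a i (by lia)).eq_of_src _ _)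
    ((isZero_of_isGE T.obj₃ b i (by lia)).eq_of_tgt _ _)

theorem of_dist₁ {T : Triangle (DerivedCategory A)} (hT : T ∈ distTriang _)
    (h₂ : PlusIn P T.obj₂) (h₃ : PlusIn P T.obj₃) : PlusIn P T.obj₁ :=
  of_dist₂ hP (inv_rot_of_distTriang _ hT) (shift hP h₃ (-1)) h₂

theorem of_dist₃ {T : Triangle (DerivedCategory A)} (hT : T ∈ distTriang _)
    (h₁ : PlusIn P T.obj₁) (h₂ : PlusIn P T.obj₂) : PlusIn P T.obj₃ :=
  of_dist₂ hP (rot_of_distTriang _ hT) h₂ (shift hP h₁ 1)

end PlusIn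

theorem PlusIn.mono {P P' : ObjectProperty A} (h : P ≤ P') {K : DerivedCategory A} (hK : PlusIn P K) :
    PlusIn P' K := ⟨hK.ge, fun n => h _ (hK.mem n)⟩

/-- Exact functors. -/
theorem PlusIn.map {B : Type u'} [Category.{v'} B] [Abelian B] {P : ObjectProperty A}
    {P' : ObjectProperty B} (hP' : WeakSerre P') (E : A ⥤ B) [E.Additive] [PreservesFiniteLimits E]
    [PreservesFiniteColimits E] (hE : ∀ F, P F → P' (E.obj F)) {K : DerivedCategory A}
    (h : PlusIn P K) : PlusIn P' (E.mapDerivedCategory.obj K) := by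
  have e : ∀ n : ℤ, (homologyFunctor B n).obj (E.mapDerivedCategory.obj K) ≅
      E.obj ((homologyFunctor A n).obj K) := fun n => (PerfA.ExactD.mapHomology E n).app K
  obtain ⟨a, ha⟩ := h.ge
  exact ⟨⟨a, (isGE_iff _ _).2 fun i hi => IsZero.of_iso (E.map_isZero (isZero_of_isGE K a i hi)) (e i)⟩,
    fun n => hP'.iso (e n).symm (hE _ (h.mem n))⟩

/-- Right derived functors. -/
theorem PlusIn.TR {B : Type u'} [Category.{v'} B] [Abelian B] [EnoughInjectives A] [HasKInj A]
    {P : ObjectProperty A} (hP : ∀ {X Y : A}, (X ≅ Y) → P X → P Y)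
    {P' : ObjectProperty B} (hP' : WeakSerre P') (G : A ⥤ B) [G.Additive]
    (hG : ∀ F, P F → ∀ q : ℕ, P' ((G.rightDerived q).obj F)) {K : DerivedCategory A}
    (h : PlusIn P K) : PlusIn P' ((RDer3.TR G).obj K) := by
  obtain ⟨a, ha⟩ := h.ge
  exact ⟨⟨a, TR_isGE G K a⟩, fun n => homology_TR G hP' hP hG K a (fun i _ => h.mem i) n⟩

end general

/-- Constructible sheaves. -/
def cns (X : Scheme.{u}) : ObjectProperty (EtCoh.Ab X) := fun F => EtPBC.IsConstructible F

theorem weakSerre_cns (X : Scheme.{u}) : WeakSerre (cns X) where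
  iso e h := EtpbcA.StrataGlob.isConstructible_of_iso e h
  zero _ hF := isConstructible_of_isZero hF
  ker φ h h' := isConstructible_kernel φ h h'
  coker φ h h' := isConstructible_cokernel φ h h'
  ext _ hS h h' := isConstructible_extension hS h h'

/-- Bounded below with torsion constructible cohomology sheaves. -/
def IsCT {X : Scheme.{u}} (K : DCoh.DEt X) : Prop :=
  (∃ a : ℤ, K.IsGE a) ∧ ∀ n : ℤ, EtCoh.IsTorsion (DCoh.HDEt K n) ∧ EtPBC.IsConstructible (DCoh.HDEt K n)

theorem isCT_iff {X : Scheme.{u}} {K : DCoh.DEt X} : IsCT K ↔ PlusIn (cns X) K :=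
  ⟨fun h => ⟨h.1, fun n => (h.2 n).2⟩, fun h => ⟨h.ge, fun n =>
    ⟨EtpbcA.KilledBy.isTorsion_of_isConstructible (h.mem n), h.mem n⟩⟩⟩

namespace IsCT

variable {X Y : Scheme.{u}}

theorem ge {K : DCoh.DEt X} (h : IsCT K) : ∃ a : ℤ, K.IsGE a := h.1

theorem isTorsion {K : DCoh.DEt X} (h : IsCT K) (n : ℤ) : EtCoh.IsTorsion (DCoh.HDEt K n) := (h.2 n).1

theorem isConstructible {K : DCoh.DEt X} (h : IsCT K) (n : ℤ) :
    EtPBC.IsConstructible (DCoh.HDEt K n) := (h.2 n).2

theorem iso {K L : DCoh.DEt X} (e : K ≅ L) (h : IsCT K) : IsCT L :=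
  isCT_iff.2 ((isCT_iff.1 h).iso (weakSerre_cns X) e)

theorem of_isZero {K : DCoh.DEt X} (hK : IsZero K) : IsCT K :=
  isCT_iff.2 (PlusIn.of_isZero (weakSerre_cns X) hK)

theorem single {F : EtCoh.Ab X} (hF : EtPBC.IsConstructible F) (n : ℤ) :
    IsCT ((singleFunctor (EtCoh.Ab X) n).obj F) :=
  isCT_iff.2 (PlusIn.single (weakSerre_cns X) hF n)

theorem single_iff {F : EtCoh.Ab X} :
    IsCT ((singleFunctor (EtCoh.Ab X) 0).obj F) ↔ EtCoh.IsTorsion F ∧ EtPBC.IsConstructible F := by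
  refine ⟨fun h => ?_, fun h => single h.2 0⟩
  have h1 : EtPBC.IsConstructible F := EtpbcA.StrataGlob.isConstructible_of_iso
    ((singleFunctorCompHomologyFunctorIso (EtCoh.Ab X) 0).app F) (h.2 0).2
  exact ⟨EtpbcA.KilledBy.isTorsion_of_isConstructible h1, h1⟩

theorem shift {K : DCoh.DEt X} (h : IsCT K) (n : ℤ) : IsCT (K⟦n⟧) :=
  isCT_iff.2 ((isCT_iff.1 h).shift (weakSerre_cns X) n)

theorem of_dist₂ {T : Triangle (DCoh.DEt X)} (hT : T ∈ distTriang _)
    (h₁ : IsCT T.obj₁) (h₃ : IsCT T.obj₃) : IsCT T.obj₂ :=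
  isCT_iff.2 (PlusIn.of_dist₂ (weakSerre_cns X) hT (isCT_iff.1 h₁) (isCT_iff.1 h₃))

theorem of_dist₁ {T : Triangle (DCoh.DEt X)} (hT : T ∈ distTriang _)
    (h₂ : IsCT T.obj₂) (h₃ : IsCT T.obj₃) : IsCT T.obj₁ :=
  isCT_iff.2 (PlusIn.of_dist₁ (weakSerre_cns X) hT (isCT_iff.1 h₂) (isCT_iff.1 h₃))

theorem of_dist₃ {T : Triangle (DCoh.DEt X)} (hT : T ∈ distTriang _)
    (h₁ : IsCT T.obj₁) (h₂ : IsCT T.obj₂) : IsCT T.obj₃ :=
  isCT_iff.2 (PlusIn.of_dist₃ (weakSerre_cns X) hT (isCT_iff.1 h₁) (isCT_iff.1 h₂))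

/-- Inverse images. -/
theorem pull (f : X ⟶ Y) {K : DCoh.DEt Y} (h : IsCT K) : IsCT ((pullD f).obj K) := by
  have : EtCoh.BCCont f := EtCoh.bcCont f
  exact isCT_iff.2 (PlusIn.map (weakSerre_cns X) (EtCoh.pull f) (fun F hF => S0127.result f F hF)
    (isCT_iff.1 h))

/-- Direct images, if the sheaves `R^q f_* F`, `F` constructible, are constructible. -/
theorem push_of (f : X ⟶ Y) (H : ∀ F : EtCoh.Ab X, EtPBC.IsConstructible F → ∀ q : ℕ,
      EtPBC.IsConstructible ((EtCoh.Rpush f q).obj F)) {K : DCoh.DEt X} (h : IsCT K) :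
    IsCT ((pushD f).obj K) :=
  isCT_iff.2 (PlusIn.TR (weakSerre_cns X).iso (weakSerre_cns Y) (EtCoh.push f) H (isCT_iff.1 h))

end IsCT

end Groth.Agent.An.H596.Cons
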